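/-
The tables of all seven types pass all checks.
-/
import Cfsg.Agent.Lib.Chev.T2G2
import Cfsg.Agent.Lib.Chev.T2B2
import Cfsg.Agent.Lib.Chev.T2D4
import Cfsg.Agent.Lib.Chev.T2F4
import Cfsg.Agent.Lib.Chev.T2E6
import Cfsg.Agent.Lib.Chev.T2E7
import Cfsg.Agent.Lib.Chev.T2E8
import Cfsg.Prelude.Def_LieTypes

set_option autoImplicit false

namespace Cfsg.Agent.Lib.Chev

open Cfsg.Lie

/-- Each of the seven data has tables passing all checks. -/
theorem exists_good2 {D : ChevalleyDatum}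
    (hD : D ∈ [chevG2, chevB2, chevD4, chevF4, chevE6, chevE7, chevE8]) : ∃ T : Tbl, T.Good2 D := by
  simp only [List.mem_cons, List.not_mem_nil, or_false] at hD
  rcases hD with rfl | rfl | rfl | rfl | rfl | rfl | rfl
  · exact ⟨_, good2G2⟩
  · exact ⟨_, good2B2⟩
  · exact ⟨_, good2D4⟩
  · exact ⟨_, good2F4⟩
  · exact ⟨_, good2E6⟩
  · exact ⟨_, good2E7⟩
  · exact ⟨_, good2E8⟩

end Cfsg.Agent.Lib.Chev
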