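/-
The exponent of the unipotent subgroup, from a grading of the coordinate module by heights.
-/
import Cfsg.Agent.Lib.Chev.Sub

set_option autoImplicit false

namespace Cfsg.Agent.Lib.Chev

open Cfsg.Lie

section Grading

variable {ι : Type*} [Fintype ι] [DecidableEq ι] {F : Type*} [Field F]

/-- Unitriangular with respect to a grading. -/
def IsUT (ht : ι → ℕ) (M : Matrix ι ι F) : Prop := ∀ i j, M i j ≠ (1 : Matrix ι ι F) i j → ht j < ht i

omit [Fintype ι] in
lemma IsUT.one (ht : ι → ℕ) : IsUT ht (1 : Matrix ι ι F) := fun _ _ h => absurd rfl h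

omit [Fintype ι] in
lemma IsUT.diag {ht : ι → ℕ} {M : Matrix ι ι F} (h : IsUT ht M) (i : ι) : M i i = 1 := by
  by_contra hne
  have := h i i (by simpa using hne)
  exact lt_irrefl _ this

omit [Fintype ι] in
lemma IsUT.off {ht : ι → ℕ} {M : Matrix ι ι F} (h : IsUT ht M) {i j : ι} (hij : i ≠ j) (hne : M i j ≠ 0) : ht j < ht i :=
  h i j (by simpa [Matrix.one_apply, hij] using hne)

lemma IsUT.mul {ht : ι → ℕ} {M M' : Matrix ι ι F} (h : IsUT ht M) (h' : IsUT ht M') : IsUT ht (M * M') := by
  intro i j hne
  by_contra hlt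
  apply hne
  rw [Matrix.mul_apply]
  have key : ∀ k, k ≠ i → M i k * M' k j = 0 := by
    intro k hk
    by_contra hz
    have h1 : M i k ≠ 0 := left_ne_zero_of_mul hz
    have h2 : M' k j ≠ 0 := right_ne_zero_of_mul hz
    have h3 := h.off hk.symm h1
    by_cases hkj : k = j
    · subst hkj
      exact hlt h3
    · have h4 := h'.off hkj h2
      exact hlt (h4.trans h3)
  rw [Finset.sum_eq_single i (fun k _ hk => key k hk) (by simp), h.diag, one_mul]
  by_cases hij : i = j
  · subst hij
    rw [h'.diag, Matrix.one_apply_eq]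
  · rw [Matrix.one_apply_ne hij]
    by_contra hz
    exact hlt (h'.off hij hz)

/-- The entries of powers of the nilpotent part. -/
lemma IsUT.pow_sub_one {ht : ι → ℕ} {M : Matrix ι ι F} (h : IsUT ht M) (k : ℕ) (i j : ι) (hne : ((M - 1) ^ k) i j ≠ 0) (hk : 0 < k) :
    ht j + k ≤ ht i := by
  induction k generalizing i with
  | zero => omega
  | succ k ih =>
    rw [pow_succ', Matrix.mul_apply] at hne
    obtain ⟨l, _, hl⟩ := Finset.exists_ne_zero_of_sum_ne_zero hne
    have h1 : (M - 1) i l ≠ 0 := left_ne_zero_of_mul hl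
    have h2 : ((M - 1) ^ k) l j ≠ 0 := right_ne_zero_of_mul hl
    have h3 : ht l < ht i := by
      apply h i l
      rw [Matrix.sub_apply, sub_ne_zero] at h1
      exact h1
    by_cases hk0 : k = 0
    · subst hk0
      rw [pow_zero] at h2
      have hlj : l = j := by
        by_contra hne2
        exact h2 (Matrix.one_apply_ne hne2)
      subst hlj
      omega
    · have := ih l h2 (Nat.pos_of_ne_zero hk0)
      omega

lemma IsUT.nilp {ht : ι → ℕ} {L : ℕ} (hL : ∀ i, ht i < L) {M : Matrix ι ι F} (h : IsUT ht M) {k : ℕ} (hk : L ≤ k) (hk0 : 0 < k) : (M - 1) ^ k = 0 := by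
  ext i j
  by_contra hne
  have := h.pow_sub_one k i j hne hk0
  have := hL i
  rw [Matrix.zero_apply] at *
  omega

/-- In characteristic `p`, a unitriangular matrix has `p`-power exponent bounded by the length of the grading. -/
lemma IsUT.pow_eq_one {p : ℕ} [Fact p.Prime] [CharP F p] [Nonempty ι] {ht : ι → ℕ} {L e : ℕ} (hL : ∀ i, ht i < L) (he : L ≤ p ^ e) {M : Matrix ι ι F} (h : IsUT ht M) :
    M ^ (p ^ e) = 1 := by
  have hc : Commute (M - 1) (1 : Matrix ι ι F) := Commute.one_right _
  haveI : CharP (Matrix ι ι F) p := Matrix.charP p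
  have h1 := add_pow_char_pow_of_commute (R := Matrix ι ι F) p e hc
  rw [sub_add_cancel, one_pow, h.nilp hL he (pow_pos (Fact.out : p.Prime).pos _), zero_add] at h1
  exact h1

end Grading

section

variable {F : Type*} [Field F] {D : ChevalleyDatum}

/-- The grading of the coordinate module from a table of heights of the roots. -/
def htIdx (D : ChevalleyDatum) (htR : ℕ → ℕ) (h0 : ℕ) : D.Idx → ℕ
  | Sum.inl _ => h0
  | Sum.inr r => htR r

lemma mem_chainCoeff {r s u : ℕ} (h : D.chainCoeff r s u ≠ []) :
    ∃ e ∈ (D.chain.getD r #[]).toList, e.1 = s ∧ ∃ q ∈ e.2.toList, q.1 = u := by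
  unfold ChevalleyDatum.chainCoeff at h
  obtain ⟨a, ha⟩ := List.exists_mem_of_ne_nil _ h
  obtain ⟨e, he, h2⟩ := List.mem_flatMap.1 ha
  obtain ⟨q, hq, _⟩ := List.mem_map.1 h2
  obtain ⟨he1, he2⟩ := List.mem_filter.1 he
  obtain ⟨hq1, hq2⟩ := List.mem_filter.1 hq
  refine ⟨e, he1, by simpa using he2, q.1, ?_, by simpa using hq2⟩
  exact (List.mem_zipIdx hq1).2.2 ▸ List.getElem_mem _

/-- The matrix of a root element of a positive root is unitriangular. -/
theorem isUT_xMat {htR : ℕ → ℕ} {h0 : ℕ} {r : Fin D.nroots} (t : F)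
    (hchain : ∀ e ∈ (D.chain.getD r.val #[]).toList, ∀ q ∈ e.2.toList, htR e.1 < htR q.1)
    (hneg : htR (D.negIdx.getD r.val 0) < h0) (hpos : h0 < htR r.val) :
    IsUT (htIdx D htR h0) (D.xMat F r t) := by
  classical
  intro row col hne
  rcases col with i | s
  · rcases row with i' | u
    · exfalso
      apply hne
      simp only [ChevalleyDatum.xMat, Matrix.of_apply, Matrix.one_apply, Sum.inl.injEq]
    · by_cases hu : u = r
      · subst hu
        exact hpos
      · exfalso
        apply hne
        simp [ChevalleyDatum.xMat, Matrix.of_apply, Matrix.one_apply, hu]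
  · by_cases h1 : s = r
    · subst h1
      exfalso
      apply hne
      rcases row with j | v
      · simp [ChevalleyDatum.xMat, Matrix.of_apply, Matrix.one_apply]
      · simp [ChevalleyDatum.xMat, Matrix.of_apply, Matrix.one_apply]
    · by_cases h2 : s.val = D.negIdx.getD r.val 0
      · rcases row with j | v
        · show htR s.val < h0
          rw [h2]
          exact hneg
        · by_cases h3 : v = s
          · subst h3
            exfalso
            apply hne
            simp [ChevalleyDatum.xMat, Matrix.of_apply, Matrix.one_apply, h1, h2]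
          · by_cases h4 : v = r
            · subst h4
              show htR s.val < htR v.val
              rw [h2]
              exact hneg.trans hpos
            · exfalso
              apply hne
              simp [ChevalleyDatum.xMat, Matrix.of_apply, Matrix.one_apply, h1, h2, h3, h4]
      · rcases row with j | v
        · exfalso
          apply hne
          simp only [ChevalleyDatum.xMat, Matrix.of_apply, if_neg h1, if_neg h2]
          simp [Matrix.one_apply]
        · by_cases h3 : D.chainCoeff r.val s.val v.val = []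
          · exfalso
            apply hne
            simp only [ChevalleyDatum.xMat, Matrix.of_apply, if_neg h1, if_neg h2, h3]
            simp [Matrix.one_apply]
          · obtain ⟨e, he, h5, q, hq, h6⟩ := mem_chainCoeff h3
            have := hchain e he q hq
            rw [h5, h6] at this
            exact this

/-- The elements of `U` are unitriangular and have `p`-power exponent bounded by the length of the grading. -/
theorem U_isUT {p : ℕ} [Fact p.Prime] [CharP F p] [Nonempty D.Idx] {htR : ℕ → ℕ} {h0 L e : ℕ}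
    (hpos : ∀ r, D.IsPosRoot r → (∀ e ∈ (D.chain.getD r #[]).toList, ∀ q ∈ e.2.toList, htR e.1 < htR q.1) ∧
      htR (D.negIdx.getD r 0) < h0 ∧ h0 < htR r)
    (hL : h0 < L ∧ ∀ r : Fin D.nroots, htR r < L) (he : L ≤ p ^ e) {g : GL D.Idx F} (hg : g ∈ D.posUnipotent F) :
    IsUT (htIdx D htR h0) (g : Matrix D.Idx D.Idx F) := by
  have hL' : ∀ i : D.Idx, htIdx D htR h0 i < L := by
    rintro (i | r)
    · exact hL.1
    · exact hL.2 r
  induction hg using Subgroup.closure_induction with
  | mem g hg =>
    obtain ⟨r, t, hr, hg⟩ := hg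
    rw [hg]
    unfold ChevalleyDatum.x
    rw [dif_pos hr.1]
    exact isUT_xMat t (hpos r hr).1 (hpos r hr).2.1 (hpos r hr).2.2
  | one => exact IsUT.one _
  | mul a b _ _ ha hb => exact ha.mul hb
  | inv a _ ha =>
    have h1 : (a : Matrix D.Idx D.Idx F) ^ (p ^ e) = 1 := ha.pow_eq_one hL' he
    have h2 : (a⁻¹ : GL D.Idx F) = a ^ (p ^ e - 1) := by
      apply inv_eq_of_mul_eq_one_right
      rw [← pow_succ', Nat.sub_add_cancel (Nat.one_le_pow _ _ (Fact.out : p.Prime).pos)]
      apply Units.ext
      rw [Units.val_pow_eq_pow_val, h1]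
      rfl
    rw [h2, Units.val_pow_eq_pow_val]
    have h3 : ∀ k : ℕ, IsUT (htIdx D htR h0) ((a : Matrix D.Idx D.Idx F) ^ k) := by
      intro k
      induction k with
      | zero =>
        rw [pow_zero]
        exact IsUT.one _
      | succ k ih =>
        rw [pow_succ]
        exact ih.mul ha
    exact h3 _

theorem U_pow_eq_one {p : ℕ} [Fact p.Prime] [CharP F p] [Nonempty D.Idx] {htR : ℕ → ℕ} {h0 L e : ℕ}
    (hpos : ∀ r, D.IsPosRoot r → (∀ e ∈ (D.chain.getD r #[]).toList, ∀ q ∈ e.2.toList, htR e.1 < htR q.1) ∧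
      htR (D.negIdx.getD r 0) < h0 ∧ h0 < htR r)
    (hL : h0 < L ∧ ∀ r : Fin D.nroots, htR r < L) (he : L ≤ p ^ e) {g : GL D.Idx F} (hg : g ∈ D.posUnipotent F) :
    g ^ (p ^ e) = 1 := by
  have hL' : ∀ i : D.Idx, htIdx D htR h0 i < L := by
    rintro (i | r)
    · exact hL.1
    · exact hL.2 r
  apply Units.ext
  rw [Units.val_pow_eq_pow_val]
  exact (U_isUT hpos hL he hg).pow_eq_one hL' he

end

end Cfsg.Agent.Lib.Chev
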